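import Cfsg.Agent.H11.SimDSpec

/-! S3694 (tower SIM), chapter D, slot UD: the determinant repair on a hyperbolic pair. -/

set_option autoImplicit false

namespace H78.SimUD

open Subgroup Cfsg H98 Matrix H0.Sim H11.SimD

section

variable {n : ℕ} {F : Type} [Field F]

/-- the rank one perturbation `x ↦ x + c h(x, y) w` -/
def rk (q : ℕ) (w y : Fin n → F) (c : F) : Mt n F := 1 + vecMulVec w (fun i => c * y i ^ q)

theorem dot_eq (q : ℕ) (x y : Fin n → F) (c : F) :
    (fun i => c * y i ^ q) ⬝ᵥ x = c * hermForm n F q x y := by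
  simp only [dotProduct, hermForm, Finset.mul_sum]
  exact Finset.sum_congr rfl fun i _ => by ring

theorem rk_mulVec (q : ℕ) (w y x : Fin n → F) (c : F) :
    rk q w y c *ᵥ x = x + (c * hermForm n F q x y) • w := by
  rw [rk, add_mulVec, one_mulVec, vecMulVec_mulVec, dot_eq]
  congr 1
  ext i
  simp [mul_comm]

theorem rk_det (q : ℕ) (w y : Fin n → F) (c : F) :
    (rk q w y c).det = 1 + c * hermForm n F q w y := by
  rw [rk, vecMulVec_eq Unit, det_one_add_replicateCol_mul_replicateRow, dot_eq]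

end

theorem jobD_UD : JobUD := by
  intro hf n F _ _ q hq w l w0 hww l0
  obtain ⟨fa, fi, sy, li, tr, -, -, -, sep⟩ := hf n F q hq
  have a1 : ∀ x y z : Fin n → F,
      hermForm n F q (x + y) z = hermForm n F q x z + hermForm n F q y z :=
    fun x y z => (li 1 x y z).1
  have a2 : ∀ x y z : Fin n → F,
      hermForm n F q z (x + y) = hermForm n F q z x + hermForm n F q z y :=
    fun x y z => (li 1 x y z).2.1
  have s1 : ∀ (a : F) (x z : Fin n → F), hermForm n F q (a • x) z = a * hermForm n F q x z :=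
    fun a x z => (li a x x z).2.2.1
  have s2 : ∀ (a : F) (x z : Fin n → F), hermForm n F q z (a • x) = a ^ q * hermForm n F q z x :=
    fun a x z => (li a x x z).2.2.2
  have z0 : (0 : F) ^ q = 0 := by
    have := fa 0 0
    rw [add_zero] at this
    linear_combination -this
  have ng : ∀ a : F, (-a) ^ q = -a ^ q := fun a => by
    have := fa (-a) a
    rw [neg_add_cancel, z0] at this
    linear_combination -this
  have sb : ∀ a : F, (a - 1) ^ q = a ^ q - 1 := fun a => by
    rw [sub_eq_add_neg, fa, ng, one_pow, ← sub_eq_add_neg]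
  obtain ⟨y₀, hy, -⟩ := sep ⊥ w (by simpa using w0)
  obtain ⟨μ, hμ⟩ := tr _ (sy y₀ y₀).symm
  have hy' : hermForm n F q y₀ w = 1 := by rw [sy, hy, one_pow]
  obtain ⟨v, h1, h2, h3⟩ : ∃ v : Fin n → F, hermForm n F q w v = 1 ∧ hermForm n F q v w = 1 ∧
      hermForm n F q v v = 0 := by
    refine ⟨y₀ + (-μ) • w, ?_, ?_, ?_⟩
    · rw [a2, s2, hy, hww, mul_zero, add_zero]
    · rw [a1, s1, hy', hww, mul_zero, add_zero]
    · rw [a1, a2, a2, s1, s1, s2, s2, hy, hy', hww, ng]
      linear_combination -hμ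
  have lq : l ^ q ≠ 0 := pow_ne_zero _ l0
  have hdet : (rk q w v (l - 1) * rk q v w ((l ^ q)⁻¹ - 1)).det = l * (l ^ q)⁻¹ := by
    rw [det_mul, rk_det, rk_det, h1, h2]; ring
  have hact : ∀ x, (rk q w v (l - 1) * rk q v w ((l ^ q)⁻¹ - 1)) *ᵥ x =
      x + (((l ^ q)⁻¹ - 1) * hermForm n F q x w) • v + ((l - 1) * hermForm n F q x v) • w := by
    intro x
    rw [← mulVec_mulVec, rk_mulVec, rk_mulVec, a1, s1, h3, mul_zero, add_zero]
  refine ⟨GeneralLinearGroup.mkOfDetNeZero _ (hdet.trans_ne (mul_ne_zero l0 (inv_ne_zero lq))),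
    ?_, hdet, fun x hx => ⟨(l - 1) * hermForm n F q x v, ?_⟩⟩
  · show _ ∈ GU n F q
    intro x y
    show hermForm n F q ((rk q w v (l - 1) * rk q v w ((l ^ q)⁻¹ - 1)) *ᵥ x)
      ((rk q w v (l - 1) * rk q v w ((l ^ q)⁻¹ - 1)) *ᵥ y) = _
    rw [hact, hact]
    simp only [a1, a2, s1, s2, h1, h2, h3, hww, mul_pow, sb, inv_pow, fi]
    rw [← sy y w, ← sy y v]
    have e1 : l * l⁻¹ = 1 := mul_inv_cancel₀ l0
    have e2 : l ^ q * (l ^ q)⁻¹ = 1 := mul_inv_cancel₀ lq
    linear_combination (hermForm n F q x v * hermForm n F q w y) * e1 +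
      (hermForm n F q x w * hermForm n F q v y) * e2
  · show (rk q w v (l - 1) * rk q v w ((l ^ q)⁻¹ - 1)) *ᵥ x = _
    rw [hact, hx, mul_zero, zero_smul, add_zero]

end H78.SimUD
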