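import Cfsg.Agent.H58.SOSpec
import Cfsg.Agent.H98.Core

/-! Tower SIM, chapter OUT: reduction to an element of order `p`. -/

set_option autoImplicit false

namespace H78.SORed

open Subgroup Cfsg H98 H0.Sim H58.SO
open scoped commutatorElement

theorem jobRED : JobRED := by
  intro X _ _ N G H A D p g h hD hX hDN hAD
  haveI : Fact p.Prime := ⟨h.pp⟩
  have hDn : normalizer (D : Set X) = ⊤ := normalizer_eq_top _
  have h1 : A ⊓ D = ⊥ := (h.mn _ inf_le_left (le_normalizer_inf h.nA (le_top.trans hDn.ge))).resolve_right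
    fun e => hAD (inf_eq_left.1 e)
  have hcen : ∀ a ∈ A, ∀ y ∈ H, y * a = a * y := fun a ha y hy =>
    commutatorElement_eq_one_iff_mul_comm.1 (mem_bot.1 (h1 ▸ (⟨A.mul_mem
      (conj_mem_of_mem_normalizer (h.nA hy) ha) (A.inv_mem ha),
      hX (commutator_mem_commutator (mem_top y) (mem_top a))⟩ : ⁅y, a⁆ ∈ A ⊓ D)))
  have hQ : IsPGroup p (pCoreOf p H) := isPGroup_pCoreOf H
  have hAp : IsPGroup p A := hQ.to_le h.AQ
  obtain ⟨x0, hx0⟩ : ∃ x0 : A, orderOf x0 = p := by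
    obtain ⟨k, hk⟩ := hAp.exists_card_eq
    refine exists_prime_orderOf_dvd_card' p ?_
    rw [hk]
    exact dvd_pow_self p fun e => h.ne (card_eq_one.1 (by rw [hk, e, pow_zero]))
  have hxo : orderOf (x0 : X) = p := by rw [orderOf_coe, hx0]
  obtain ⟨x, hxA⟩ := x0
  simp only at hxo
  have hx1 : x ≠ 1 := fun e => h.pp.one_lt.ne (by rw [← hxo, e, orderOf_one])
  set Z : Subgroup X := centralizer ({x} : Set X) with hZ
  have hHZ : H ≤ Z := fun y hy => mem_centralizer_singleton_iff.2 (hcen x hxA y hy)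
  have hZn : Z ≤ normalizer (zpowers x : Set X) := fun y hy => by
    apply centralizer_le_normalizer
    rintro _ ⟨n, rfl⟩
    exact ((show Commute y x from mem_centralizer_singleton_iff.1 hy).zpow_right n).eq.symm
  have hxz : zpowers x = A := (h.mn _ (zpowers_le.2 hxA) (hHZ.trans hZn)).resolve_left
    fun e => hx1 (zpowers_eq_bot.1 e)
  have hGZ : G ⊓ Z = H := (h.mx _ (le_inf h.HG.le hHZ) inf_le_left).resolve_right fun e =>
    h.Bne (cj_eq_self (hxz ▸ hZn ((inf_eq_left.1 e) (h.NG h.gN))))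
  have hcm : ∀ a ∈ D ⊓ Z, ∀ b ∈ D ⊓ Z, ⁅a, b⁆ ∈ H := fun a ha b hb =>
    hGZ ▸ (⟨h.NG (hDN (commutator_mem_commutator ha.1 hb.1)),
      Z.mul_mem (Z.mul_mem (Z.mul_mem ha.2 hb.2) (Z.inv_mem ha.2)) (Z.inv_mem hb.2)⟩ : ⁅a, b⁆ ∈ G ⊓ Z)
  have hQH : pCoreOf p H ≤ H := pCoreOf_le H
  refine ⟨x, fun hx => hx1 (mem_bot.1 (h1 ▸ (⟨hxA, hx⟩ : x ∈ A ⊓ D))), hxo, ?_, ?_, ?_⟩
  · rw [← (D.subgroupOf H).card_mul_index]
    refine Nat.mul_le_mul ?_ (Nat.le_of_dvd (Nat.pos_of_ne_zero index_ne_zero_of_finite)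
      (relIndex_dvd_index_of_normal D H))
    rw [← card_map_of_injective (subtype_injective H), subgroupOf_map_subtype]
    exact card_le_of_le (inf_le_inf_left _ hHZ)
  · intro hc
    obtain ⟨K, hK⟩ := hc_equiv (subgroupOfEquivOfLe (inf_le_right : D ⊓ Z ≤ Z)).symm hc
    have hn : ((D ⊓ Z).subgroupOf Z).Normal := by
      rw [inf_subgroupOf_right]; infer_instance
    have hL := H14.comp_map_subtype hn.isSubnormal hK
    have hLC : K.map ((D ⊓ Z).subgroupOf Z).subtype ≤ (D ⊓ Z).subgroupOf Z := map_subtype_le _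
    generalize K.map ((D ⊓ Z).subgroupOf Z).subtype = L at hL hLC
    have hLH : L ≤ H.subgroupOf Z := by
      rw [← H14.comp_perfect hL]
      exact commutator_le.2 fun a ha b hb => hcm a (hLC ha) b (hLC hb)
    have hs : Group.IsSolvable ((pCoreOf p H).subgroupOf Z) := by
      have : Group.IsNilpotent ((pCoreOf p H).subgroupOf Z) :=
        (hQ.comap_subtype (K := Z)).isNilpotent
      exact IsNilpotent.to_isSolvable
    have hb := H14.comp_commutator_solvable hL hs fun l hl => mem_normalizer_iff.2 fun y =>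
      mem_normalizer_iff.1 (self_le_normalizer_pCoreOf H (hLH hl)) (y : X)
    refine H14.quasi_not_le_solvable hL.2 hs fun l hl => h.ch l (hLH hl) fun y hy => ?_
    have := commutator_eq_bot_iff_le_centralizer.1 hb hl ⟨y, hHZ (hQH hy)⟩ hy
    exact congrArg Subtype.val this
  · by_contra hne
    rw [not_or] at hne
    have hnd : ∀ y ∈ pCoreOf p H, y ∈ D ⊓ Z → y = 1 := by
      intro y hy hyC
      by_contra hy1
      obtain ⟨k, hk⟩ := (IsPGroup.iff_orderOf.1 hQ) ⟨y, hy⟩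
      rw [← orderOf_coe] at hk
      refine hne.2 (dvd_trans ?_ (orderOf_dvd_natCard _ hyC))
      simp only at hk
      rw [hk]
      exact dvd_pow_self p fun e => hy1 (orderOf_eq_one_iff.1 (by rw [hk, e, pow_zero]))
    refine hne.1 fun a b => Subtype.ext (commutatorElement_eq_one_iff_mul_comm.1 ?_)
    have hc := hcm a a.2 b b.2
    have hcC : ⁅(a : X), (b : X)⁆ ∈ D ⊓ Z :=
      mul_mem (mul_mem (mul_mem a.2 b.2) (inv_mem a.2)) (inv_mem b.2)
    refine hnd _ (h.ch _ hc fun y hy => commutatorElement_eq_one_iff_mul_comm.1 (hnd _ ?_ ?_)) hcC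
    · rw [commutatorElement_def y, mul_assoc, mul_assoc, ← mul_assoc ⁅(a : X), (b : X)⁆]
      exact mul_mem hy (conj_mem_of_mem_normalizer (self_le_normalizer_pCoreOf H hc) (inv_mem hy))
    · exact ⟨D.mul_mem (hD.conj_mem _ hcC.1 y) (D.inv_mem hcC.1),
        Z.mul_mem (Z.mul_mem (Z.mul_mem (hHZ (hQH hy)) hcC.2) (Z.inv_mem (hHZ (hQH hy))))
          (Z.inv_mem hcC.2)⟩

end H78.SORed
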