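/- PN tower (S3399), slot FIN2. -/
import Cfsg.Agent.H42.PnSpec

set_option autoImplicit false
set_option linter.unusedSectionVars false

namespace H78.PN
open Equiv MulAction Pointwise H2.Ln H42.PN

variable {α : Type} [Fintype α] [DecidableEq α]

theorem nrm {G K : Subgroup (Perm α)} (h : Cx G K) {y k : Perm α} (hy : y ∈ sw G (fp K))
    (hk : k ∈ K) : y * k * y⁻¹ ∈ K := by
  refine h.full (mem_fx.2 ⟨G.mul_mem (G.mul_mem hy.1 (h.le hk)) (G.inv_mem hy.1), fun a ha => ?_⟩)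
  have h1 : y⁻¹ a ∈ fp K := by
    rw [← (sm_eq_iff'.1 (mem_sw.1 hy).2) (y⁻¹ a)]; simpa using ha
  rw [Perm.mul_apply, Perm.mul_apply, mem_fp.1 h1 k hk]
  simp

theorem outK {K : Subgroup (Perm α)} {k : Perm α} (hk : k ∈ K) {s : α} (hs : s ∉ fp K) :
    k s ∉ fp K := fun h => hs ((sm_eq_iff'.1 (sm_fp hk) s).1 h)

theorem nrmR {G K R : Subgroup (Perm α)} (h : C5 G K R) {k r : Perm α} (hk : k ∈ K) (hr : r ∈ R) :
    k * r * k⁻¹ ∈ R := by
  obtain ⟨h1, h2⟩ := (h.memR r).1 hr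
  refine (h.memR _).2 ⟨K.mul_mem (K.mul_mem hk h1) (K.inv_mem hk), ?_⟩
  rcases h2 with rfl | h2
  · left; simp
  · right
    intro s hs e
    refine h2 (k⁻¹ s) (outK (K.inv_mem hk) hs) ?_
    rw [Perm.eq_inv_iff_eq]
    simpa using e

theorem jobFin2 : Fin2 := by
  intro α _ _ G K R h hE y hy hyK h3 h2 hR k hk
  by_contra hne
  have hkR : k ∉ R := fun e => hne (hR k e)
  have hRK : R ≤ K := fun x hx => ((h.memR x).1 hx).1
  obtain e | ⟨s₀, hs₀, eo, hx⟩ := h.fro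
  · exact hkR (e ▸ hk)
  set O := orb R s₀ with hO
  have hOK : ∀ x ∈ K, ∀ s ∈ O, x s ∈ O := by rw [eo]; exact orb_inv
  have hOS : ∀ s ∈ O, s ∉ fp K := by
    intro s hs
    obtain ⟨x, hx, rfl⟩ := mem_orb.1 hs
    exact outK (hRK hx) hs₀
  have hyS : ∀ s, y s ∈ fp K ↔ s ∈ fp K := sm_eq_iff'.1 (mem_sw.1 hy).2
  -- points with a nontrivial stabiliser
  have c1 : ∀ s ∉ fp K, ∀ x ∈ K, x s = s → x = 1 ∨ s ∈ O := by
    intro s hs x hx1 e
    by_cases h1 : x = 1
    · exact Or.inl h1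
    have : x ∉ R := fun hr => by
      rcases ((h.memR x).1 hr).2 with h4 | h4
      · exact h1 h4
      · exact h4 s hs e
    obtain ⟨t, ht, e'⟩ := hx x hx1 this
    rcases h.one x hx1 s hs t (hOS t ht) e e' with h4 | h4
    · exact Or.inl h4
    · exact Or.inr (h4 ▸ ht)
  have c2 : ∀ s ∈ O, ∃ x ∈ K, x ≠ 1 ∧ x s = s := by
    intro s hs
    obtain ⟨t, ht, e'⟩ := hx k hk hkR
    obtain ⟨g, hg, rfl⟩ := orb_tr (L := R) (u := s₀) t ht s hs
    refine ⟨g * k * g⁻¹, K.mul_mem (K.mul_mem (hRK hg) hk) (K.inv_mem (hRK hg)), fun e => hkR ?_,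
      by simp [e']⟩
    have : k = 1 := by
      have := congrArg (fun z => g⁻¹ * z * g) e
      simpa [mul_assoc] using this
    exact this ▸ R.one_mem
  have hyO : ∀ s ∈ O, y s ∈ O := by
    intro s hs
    obtain ⟨x, hx1, h1, e⟩ := c2 s hs
    rcases c1 (y s) (fun h4 => hOS s hs ((hyS s).1 h4)) _ (nrm h.toCx hy hx1) (by simp [e])
      with h4 | h4
    · refine absurd ?_ h1
      have := congrArg (fun z => y⁻¹ * z * y) h4
      simpa [mul_assoc] using this
    · exact h4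
  obtain ⟨r, hr, hr1⟩ : ∃ r ∈ R, r ≠ 1 := by
    by_contra hc
    push Not at hc
    exact h.neR (eq_bot_iff.2 fun x hx => hc x hx)
  have hrm : ∀ s ∉ fp K, r s ≠ s := (((h.memR r).1 hr).2).resolve_left hr1
  -- the commutator
  have cm : ∀ x ∈ K, x⁻¹ * (y * x * y⁻¹) = 1 → y * x = x * y := by
    intro x _ e
    rw [inv_mul_eq_one] at e
    calc y * x = y * x * y⁻¹ * y := by group
      _ = x * y := by rw [← e]
  have cK : ∀ x ∈ K, x⁻¹ * (y * x * y⁻¹) ∈ K := fun x hx =>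
    K.mul_mem (K.inv_mem hx) (nrm h.toCx hy hx)
  have cf : ∀ (x : Perm α) (s : α), y s = s → y (x s) = x s → (x⁻¹ * (y * x * y⁻¹)) s = s := by
    intro x s e1 e2
    have : y⁻¹ s = s := by rw [Perm.inv_eq_iff_eq, e1]
    simp only [Perm.mul_apply, this, e2]
    simp
  have hyR : ∀ x ∈ R, ∀ s, y s = s → y (x s) = x s := by
    intro x hx s e
    have := congrArg (fun z : Perm α => z s) (hR x hx)
    simpa [e] using this
  by_cases hA : ∃ s ∈ O, y s = s
  · obtain ⟨s, hs, e⟩ := hA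
    have hall : ∀ t ∈ O, y t = t := by
      intro t ht
      obtain ⟨g, hg, rfl⟩ := orb_tr (L := R) (u := s₀) s hs t ht
      exact hyR g hg s e
    have hrs : r s ∈ O := hOK r (hRK hr) s hs
    rcases h.one _ (cK k hk) s (hOS s hs) (r s) (hOS _ hrs) (cf k s e (hall _ (hOK k hk s hs)))
      (cf k _ (hall _ hrs) (hall _ (hOK k hk _ hrs))) with h4 | h4
    · exact hne (cm k hk h4)
    · exact hrm s (hOS s hs) h4.symm
  push Not at hA
  set Φ := (fp K)ᶜ \ y.support with hΦ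
  have mΦ : ∀ s, s ∈ Φ ↔ s ∉ fp K ∧ y s = s := by intro s; simp [hΦ]
  have cR : ∀ x ∈ K, y * x = x * y → x ∈ R := by
    intro x hx1 e
    by_contra hxR
    obtain ⟨t, ht, e'⟩ := hx x hx1 hxR
    have h4 : x (y t) = y t := by
      have := congrArg (fun z : Perm α => z t) e
      simpa [e'] using this.symm
    rcases h.one x hx1 t (hOS t ht) (y t) (hOS _ (hyO t ht)) e' h4 with h5 | h5
    · exact hxR (h5 ▸ R.one_mem)
    · exact hA t ht h5.symm
  have dj : ∀ x ∈ K, x ∉ R → ∀ s ∈ Φ, x s ∉ Φ := by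
    intro x hx1 hxR s hs hs'
    rw [mΦ] at hs hs'
    rcases c1 s hs.1 _ (cK x hx1) (cf x s hs.2 hs'.2) with h4 | h4
    · exact hxR (cR x hx1 (cm x hx1 h4))
    · exact hA s h4 hs.2
  have dj' : ∀ x ∈ K, ∀ x' ∈ K, x⁻¹ * x' ∉ R → Disjoint (x • Φ) (x' • Φ) := by
    intro x hx1 x' hx2 hn
    rw [Finset.disjoint_left]
    intro s h4 h5
    rw [mem_sm] at h4 h5
    refine dj _ (K.mul_mem (K.inv_mem hx1) hx2) hn _ h5 ?_
    simpa using h4
  have sS : ∀ x ∈ K, x • Φ ⊆ (fp K)ᶜ := by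
    intro x hx1 s hs
    rw [mem_sm, mΦ] at hs
    have := outK hx1 hs.1
    simpa using this
  have cS : ((fp K)ᶜ).card = (fp K).card := by
    rw [Finset.card_compl, h.half]; omega
  have d1 : Disjoint Φ (k • Φ) := by
    simpa using dj' 1 K.one_mem k hk (by simpa using hkR)
  have s1 : Φ ⊆ (fp K)ᶜ := Finset.sdiff_subset
  by_cases hB : ∃ k' ∈ K, k' ∉ R ∧ k⁻¹ * k' ∉ R
  · obtain ⟨k', hk', h4, h5⟩ := hB
    have d2 : Disjoint Φ (k' • Φ) := by
      simpa using dj' 1 K.one_mem k' hk' (by simpa using h4)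
    have d3 := dj' k hk k' hk' h5
    have := Finset.card_le_card (Finset.union_subset (Finset.union_subset s1 (sS k hk)) (sS k' hk'))
    rw [Finset.card_union_of_disjoint (Finset.disjoint_union_left.2 ⟨d2, d3⟩),
      Finset.card_union_of_disjoint d1, Finset.card_smul_finset, Finset.card_smul_finset] at this
    omega
  push Not at hB
  have hO2 : 2 ≤ O.card := Finset.one_lt_card.2
    ⟨s₀, self_mem_orb, r s₀, hOK r (hRK hr) _ self_mem_orb, (hrm s₀ hs₀).symm⟩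
  have d2 : Disjoint Φ O := Finset.disjoint_left.2 fun s h4 h5 => hA s h5 ((mΦ s).1 h4).2
  have d3 : Disjoint (k • Φ) O := Finset.disjoint_left.2 fun s h4 h5 => by
    rw [mem_sm] at h4
    exact hA _ (hOK _ (K.inv_mem hk) s h5) ((mΦ _).1 h4).2
  have sO : O ⊆ (fp K)ᶜ := fun s hs => Finset.mem_compl.2 (hOS s hs)
  have sU := Finset.union_subset (Finset.union_subset s1 (sS k hk)) sO
  have cT := Finset.card_sdiff_add_card_eq_card sU
  rw [Finset.card_union_of_disjoint (Finset.disjoint_union_left.2 ⟨d2, d3⟩),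
    Finset.card_union_of_disjoint d1, Finset.card_smul_finset] at cT
  have ΦR : ∀ x ∈ R, ∀ s ∈ Φ, x s ∈ Φ := fun x hx1 s hs =>
    (mΦ _).2 ⟨outK (hRK hx1) ((mΦ s).1 hs).1, hyR x hx1 s ((mΦ s).1 hs).2⟩
  have cov : ∀ s ∉ fp K, s ∈ Φ ∪ k • Φ ∪ O := by
    intro s hs
    by_contra hc
    have hc' : r s ∉ Φ ∪ k • Φ ∪ O := by
      intro h4
      refine hc ?_
      simp only [Finset.mem_union, mem_sm] at h4 ⊢
      rcases h4 with (h4 | h4) | h4
      · left; left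
        simpa using ΦR _ (R.inv_mem hr) _ h4
      · left; right
        simpa using ΦR _ (nrmR h (K.inv_mem hk) (R.inv_mem hr)) _ h4
      · right
        simpa using hOK _ (K.inv_mem (hRK hr)) _ h4
    have : 2 ≤ ((fp K)ᶜ \ (Φ ∪ k • Φ ∪ O)).card := Finset.one_lt_card.2
      ⟨s, Finset.mem_sdiff.2 ⟨Finset.mem_compl.2 hs, hc⟩, r s,
        Finset.mem_sdiff.2 ⟨Finset.mem_compl.2 (outK (hRK hr) hs), hc'⟩, (hrm s hs).symm⟩
    omega
  refine hyK (hE y hy hR fun s hs => ?_)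
  have := cov s hs
  simp only [Finset.mem_union, mem_sm] at this
  rcases this with (h4 | h4) | h4
  · rw [((mΦ s).1 h4).2]; exact self_mem_orb
  · have hk' : y * k * y⁻¹ ∉ R := by
      intro h5
      have e := hR _ h5
      have : y * k * y⁻¹ = k := by
        have e2 : y * (y * k * y⁻¹) = y * k := by rw [e]; group
        exact mul_left_cancel e2
      exact hkR (this ▸ h5)
    have h5 := nrmR h hk (hB _ (nrm h.toCx hy hk) hk')
    refine mem_orb.2 ⟨_, h5, ?_⟩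
    have : y⁻¹ (k⁻¹ s) = k⁻¹ s := by rw [Perm.inv_eq_iff_eq, ((mΦ _).1 h4).2]
    simp only [Perm.mul_apply, this]
    simp
  · rw [orb_eq (L := R) (u := s₀) h4]
    exact hyO s h4

end H78.PN
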